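import Cfsg.Agent.H138.HT.Comps
import Cfsg.Agent.H926.HT.Tens
import Cfsg.Agent.H199.HT.TTCov
import Cfsg.Agent.H960.HT.TwoF
import Cfsg.Agent.S0690

/-!
# S3540, section 4: `comps_false`
-/

set_option autoImplicit false

universe u

namespace Cfsg.Agent.H138.HT

open Cfsg.Agent.H828.HT Cfsg.Agent.Omega.NO1.Comp Module TensorProduct

section SL

variable {p : ℕ} [hp : Fact p.Prime] {K : Type u} [Field K] {V : Type u} [AddCommGroup V] [Module (ZMod p) V]
  [Module K V] [Finite V] {W W' : Type u} [AddCommGroup W] [Module K W] [AddCommGroup W'] [Module K W']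
  {G A B : Subgroup (V ≃ₗ[ZMod p] V)} {h : ℕ}

open Cfsg.Agent.H926.HT

/-- the action of `A` on the additive group `W`, written multiplicatively -/
noncomputable def TT.act (T : TT p K V W W' G A B h) : A →* MulAut (Multiplicative W) where
  toFun a :=
    { toFun := fun w => Multiplicative.ofAdd (RA T a w.toAdd)
      invFun := fun w => Multiplicative.ofAdd (RA T a⁻¹ w.toAdd)
      left_inv := fun w => by
        change Multiplicative.ofAdd ((RA T a⁻¹ * RA T a) w.toAdd) = w
        rw [← map_mul, inv_mul_cancel, map_one]; rfl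
      right_inv := fun w => by
        change Multiplicative.ofAdd ((RA T a * RA T a⁻¹) w.toAdd) = w
        rw [← map_mul, mul_inv_cancel, map_one]; rfl
      map_mul' := fun x y => by
        change Multiplicative.ofAdd (RA T a (x.toAdd + y.toAdd)) = _
        rw [map_add]; rfl }
  map_one' := by
    ext w
    change Multiplicative.ofAdd (RA T 1 w.toAdd) = w
    rw [map_one]; rfl
  map_mul' a b := by
    ext w
    change Multiplicative.ofAdd (RA T (a * b) w.toAdd) = _
    rw [map_mul]; rfl

theorem TT.act_apply (T : TT p K V W W' G A B h) (a : A) (w : Multiplicative W) :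
    T.act a w = Multiplicative.ofAdd (RA T a w.toAdd) := rfl

/-- **`A` is isomorphic to `SL(2,5)`** -/
theorem tt_sl (T : TT p K V W W' G A B h) : Nonempty (A ≃* Matrix.SpecialLinearGroup (Fin 2) (ZMod 5)) := by
  have := T.D.finL
  have hfin : Finite (Multiplicative W) := this
  have hinj : Function.Injective T.act := by
    rw [injective_iff_map_eq_one]
    intro a ha
    apply RA_inj T
    ext w
    have h1 := DFunLike.congr_fun ha (Multiplicative.ofAdd w)
    exact congrArg Multiplicative.toAdd h1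
  have hperf : commutator A = ⊤ := T.qsA.1.commutator_eq_top
  obtain ⟨e⟩ := Cfsg.Agent.S0690.result T.act.range (by
      rintro _ ⟨a, rfl⟩ h1 w hw
      by_contra hw1
      apply h1
      have h2 : a = 1 := fpf T (w := w.toAdd) (fun h0 => hw1 (by
        have := congrArg Multiplicative.ofAdd h0
        exact this)) (congrArg Multiplicative.toAdd hw)
      rw [h2, map_one]) (by
      have h1 : (commutator A).map T.act.rangeRestrict = commutator T.act.range := by
        rw [_root_.commutator_def, _root_.commutator_def, Subgroup.map_commutator]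
        congr 1 <;> exact Subgroup.map_top_of_surjective _ T.act.rangeRestrict_surjective
      rw [← h1, hperf, Subgroup.map_top_of_surjective _ T.act.rangeRestrict_surjective]) (by
      intro h0
      refine qs_nonab T.qsA (fun x y => ?_)
      have h1 : ∀ x : A, x = 1 := by
        intro x
        apply hinj
        have : T.act x ∈ T.act.range := ⟨x, rfl⟩
        rw [h0, Subgroup.mem_bot] at this
        rw [this, map_one]
      rw [h1 x, h1 y])
  exact ⟨(MonoidHom.ofInjective hinj).trans e⟩

end SL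

/-- **Section 4**: there are not at least two components. -/
theorem comps_false {p : ℕ} [hp : Fact p.Prime] {V : Type u} [AddCommGroup V] [Module (ZMod p) V] [Finite V]
    {G : Subgroup (V ≃ₗ[ZMod p] V)} {h : ℕ} (hh : Half G h) (h2 : 2 ≤ h) (hG : ¬ p ∣ Nat.card G) (k : ℕ)
    (hk : 2 ≤ k) (L : Fin k → Subgroup (V ≃ₗ[ZMod p] V)) (_hinj : Function.Injective L) (hLG : ∀ i, L i ≤ G)
    (hq : ∀ i, Cfsg.IsQuasisimple (L i))
    (hcomm : ∀ i j, i ≠ j → ∀ x ∈ L i, ∀ y ∈ L j, x * y = y * x)
    (hperm : ∀ g ∈ G, ∀ i, ∃ j, ∀ x ∈ L i, g * x * g⁻¹ ∈ L j)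
    (htrans : ∀ i j, ∃ g ∈ G, ∀ x ∈ L i, g * x * g⁻¹ ∈ L j)
    (hE : Cfsg.Agent.H960.HT.Irr (⨆ i, L i : Subgroup (V ≃ₗ[ZMod p] V))) : False := by
  have hV : Nontrivial V := by
    by_contra hV
    rw [not_nontrivial_iff_subsingleton] at hV
    exact qs_nonab (hq ⟨0, by omega⟩) (fun x y => Subtype.ext (LinearEquiv.ext fun v => Subsingleton.elim _ _))
  obtain ⟨K, i1, i2, i3, H⟩ := exists_sec L hq hcomm hperm htrans hE
  obtain ⟨m, hm, -⟩ := exists_m hh (exists_ne (0 : V))
  obtain ⟨hk2, hm2, -⟩ := H.reduce hh h2 hG hk hm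
  subst hk2
  obtain ⟨W, W', j1, j2, j3, j4, ⟨T⟩⟩ := H.exists_TT hLG hh h2 hG hm
  obtain ⟨eA⟩ := tt_sl T
  obtain ⟨eB⟩ := tt_sl T.symm
  have cA : Nat.card (L 0) = 120 := by
    rw [Nat.card_congr eA.toEquiv]
    exact Cfsg.Agent.PermutationGroups.AutSL25.natCard
  have cB : Nat.card (L 1) = 120 := by
    rw [Nat.card_congr eB.toEquiv]
    exact Cfsg.Agent.PermutationGroups.AutSL25.natCard
  exact num_end Finite.one_lt_card hm2 (Cfsg.Agent.H926.HT.tt_low T cA cB hm)
    (Cfsg.Agent.H199.HT.tt_cov T ⟨eA⟩ ⟨eB⟩)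

end Cfsg.Agent.H138.HT
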